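import Cfsg.Agent.Lib.Lead.Factor
import Cfsg.Agent.Lib.Lead.GroupFusion
import Cfsg.Agent.S5077

set_option autoImplicit false
open Cfsg Cfsg.FusionSystem

namespace Cfsg.Agent.Fus

variable {Ω : Type*} [Group Ω] {S T : Subgroup Ω}

/-- `Aut_E(R)` is normalised by `Aut_F(R)` when `E` is invariant in `F`. -/
theorem autGroup_conj_mem_of_invariant {F : FusionSystem S} {E : FusionSystem T}
    (hE : E.IsInvariantIn F) {R : Subgroup Ω} (hRT : R ≤ T) {γ β : MulAut R}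
    (hγ : γ ∈ E.autGroup R) (hβ : β ∈ F.autGroup R) : β * γ * β⁻¹ ∈ E.autGroup R := by
  obtain ⟨hsub, hTsc, hinv, hfrat⟩ := hE
  have hRS : R ≤ S := hRT.trans hTsc.1
  have hβF := (mem_autGroup_iff F hRS β).mp hβ
  obtain ⟨α, hα, φ₀, hφ₀, hβα⟩ := hfrat R hRT _ hβF
  have hφ₀T := (E.le_of_mem hφ₀).2
  set e₀ := isoOfMap φ₀ (E.injective_of_mem hφ₀) rfl with he₀
  have he₀coe : ∀ x : R, ((e₀ x : φ₀.range) : Ω) = φ₀ x := fun x => isoOfMap_apply_coe _ _ _ x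
  have hγ' : MulAut.congr e₀ γ ∈ E.autGroup φ₀.range := autGroup_congr E hφ₀ rfl hγ
  have hR₀T : φ₀.range ≤ T := range_le E hφ₀
  have hγ'E := (mem_autGroup_iff E hR₀T _).mp hγ'
  obtain ⟨χ, hχ, hχeq⟩ := hinv φ₀.range hR₀T _ hγ'E α hα
  have hsrc : (φ₀.range.subgroupOf T).map (T.subtype.comp α.toMonoidHom) = R := by
    apply le_antisymm
    · rintro _ ⟨⟨_, _⟩, ⟨x, rfl⟩, rfl⟩
      have := hβα x (hφ₀T x)
      show ((α ⟨φ₀ x, _⟩ : T) : Ω) ∈ R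
      rw [← this]; exact (β x).2
    · intro y hy
      refine ⟨⟨φ₀ (β⁻¹ ⟨y, hy⟩), hφ₀T _⟩, ⟨_, rfl⟩, ?_⟩
      have := hβα (β⁻¹ ⟨y, hy⟩) (hφ₀T _)
      show ((α ⟨φ₀ (β⁻¹ ⟨y, hy⟩), _⟩ : T) : Ω) = y
      rw [← this]
      show ((β (β⁻¹ ⟨y, hy⟩) : R) : Ω) = y
      rw [MulAut.apply_inv_self]
  obtain ⟨χ₁, hχ₁, hχ₁eq⟩ := exists_transport E hsrc hχ
  rw [mem_autGroup_iff E hRT]
  refine mem_of_forall_eq E hχ₁ (fun y => ?_)
  show (((β * γ * β⁻¹) y : R) : Ω) = χ₁ y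
  rw [MulAut.mul_apply, MulAut.mul_apply]
  set x := β⁻¹ y with hx
  have hyx : (y : Ω) = ((α ⟨φ₀ x, hφ₀T x⟩ : T) : Ω) := by
    rw [← hβα x (hφ₀T x)]
    show (y : Ω) = ((β x : R) : Ω)
    rw [hx, MulAut.apply_inv_self]
  have hmem : ((α ⟨φ₀ x, hφ₀T x⟩ : T) : Ω) ∈
      (φ₀.range.subgroupOf T).map (T.subtype.comp α.toMonoidHom) :=
    ⟨⟨φ₀ x, hφ₀T x⟩, ⟨x, rfl⟩, rfl⟩
  have h1 := hχ₁eq _ hmem (hyx ▸ y.2)
  have e1 : y = ⟨((α ⟨φ₀ x, hφ₀T x⟩ : T) : Ω), hyx ▸ y.2⟩ := Subtype.ext hyx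
  rw [e1, h1]
  have hval : (φ₀.range.subtype.comp (MulAut.congr e₀ γ).toMonoidHom) (e₀ x) = φ₀ (γ x) := by
    show (((MulAut.congr e₀ γ) (e₀ x) : φ₀.range) : Ω) = φ₀ (γ x)
    rw [← he₀coe]
    simp [MulAut.congr]
  have h2 := hχeq (e₀ x) (by rw [hval]; exact hφ₀T _) hmem
  have e2 : (⟨((α ⟨φ₀ x, hφ₀T x⟩ : T) : Ω), hmem⟩ :
      ↥((φ₀.range.subgroupOf T).map (T.subtype.comp α.toMonoidHom)))
      = ⟨((α ⟨((e₀ x : φ₀.range) : Ω), hR₀T (e₀ x).2⟩ : T) : Ω), hmem⟩ := rfl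
  rw [e2, h2]
  have h3 := hβα (γ x) (hφ₀T _)
  show ((β (γ x) : R) : Ω) = _
  have h3' : ((β (γ x) : R) : Ω) = ((α ⟨φ₀ (γ x), hφ₀T _⟩ : T) : Ω) := h3
  rw [h3']
  congr 2
  exact Subtype.ext hval.symm

/-- if `E` (over all of `S`) is invariant in the saturated system `F`, then `Aut_E(R)` contains all
the `p`-elements of `Aut_F(R)` for `R` fully normalized. -/
theorem mem_autGroup_of_pow_eq_one [Finite S] {p : ℕ} [Fact p.Prime] (hS : IsPGroup p S)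
    {F E : FusionSystem S} (hF : F.IsSaturated p) (hE : E.IsInvariantIn F) {R : Subgroup Ω}
    (hR : F.IsFullyNormalized R) {β : MulAut R} (hβ : β ∈ F.autGroup R) {k : ℕ}
    (hk : β ^ p ^ k = 1) : β ∈ E.autGroup R := by
  have hsat := (Cfsg.Agent.S5077.result p hS F).mp hF
  have hRS := hR.1
  have : Finite R := finite_of_le hRS
  have : Finite (MulAut R) := inferInstance
  have hTp : IsPGroup p (Subgroup.zpowers β) := by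
    rintro ⟨_, i, rfl⟩
    refine ⟨k, Subtype.ext ?_⟩
    show (β ^ i) ^ p ^ k = 1
    rw [← zpow_natCast, ← zpow_mul, mul_comm, zpow_mul, zpow_natCast, hk, one_zpow]
  obtain ⟨γ, hγ, hγle⟩ := rel_sylow_conj (G := MulAut R) (hsat.1 R hR).2.2
    (by rw [Subgroup.zpowers_le]; exact hβ) hTp
  have h1 : γ * β * γ⁻¹ ∈ autInducedBy S R := hγle ⟨β, Subgroup.mem_zpowers _, rfl⟩
  have h2 : γ * β * γ⁻¹ ∈ E.autGroup R := autInducedBy_le_autGroup E hRS h1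
  have h3 := autGroup_conj_mem_of_invariant hE hRS h2 ((F.autGroup R).inv_mem hγ)
  have e : γ⁻¹ * (γ * β * γ⁻¹) * γ⁻¹⁻¹ = β := by group
  rwa [e] at h3

end Cfsg.Agent.Fus
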