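import Mathlib

set_option autoImplicit false

namespace Cfsg.Agent.Lib.Lead.Maschke

/-- projection onto `U` along a complement `W` in a commutative group. -/
theorem exists_proj {V : Type*} [CommGroup V] (U W : Subgroup V) (hUW : U ⊓ W = ⊥)
    (hsup : U ⊔ W = ⊤) : ∃ ρ : V →* V, (∀ v, ρ v ∈ U) ∧ ∀ u ∈ U, ρ u = u := by
  let f : U × W →* V := MonoidHom.coprod U.subtype W.subtype
  have hf : ∀ x : U × W, f x = (x.1 : V) * (x.2 : V) := fun x => rfl
  have hinj : Function.Injective f := by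
    rw [injective_iff_map_eq_one]
    rintro ⟨u, w⟩ h
    rw [hf] at h
    have h1 : (u : V) = (w : V)⁻¹ := eq_inv_of_mul_eq_one_left h
    have h2 : (u : V) ∈ U ⊓ W := ⟨u.2, by rw [h1]; exact W.inv_mem w.2⟩
    rw [hUW, Subgroup.mem_bot] at h2
    have h3 : (w : V) = 1 := by
      rw [h2] at h1
      exact inv_eq_one.1 h1.symm
    ext
    · exact h2
    · exact h3
  have hsurj : Function.Surjective f := by
    intro v
    have : v ∈ U ⊔ W := by rw [hsup]; exact Subgroup.mem_top v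
    obtain ⟨y, hy, z, hz, rfl⟩ := Subgroup.mem_sup.1 this
    exact ⟨(⟨y, hy⟩, ⟨z, hz⟩), rfl⟩
  let e : U × W ≃* V := MulEquiv.ofBijective f ⟨hinj, hsurj⟩
  refine ⟨U.subtype.comp ((MonoidHom.fst U W).comp e.symm.toMonoidHom), fun v => ?_, fun u hu => ?_⟩
  · exact (e.symm v).1.2
  · have h1 : e (⟨u, hu⟩, 1) = u := by
      show f (⟨u, hu⟩, 1) = u
      rw [hf]; simp
    have h2 : e.symm u = (⟨u, hu⟩, 1) := (MulEquiv.symm_apply_eq e).2 h1.symm
    show ((e.symm u).1 : V) = u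
    rw [h2]

theorem maschke {A V : Type*} [Group A] [Finite A] [CommGroup V] [Finite V]
    [MulDistribMulAction A V] (hcop : (Nat.card A).Coprime (Nat.card V)) (U W : Subgroup V)
    (hU : ∀ a : A, ∀ u ∈ U, a • u ∈ U) (hUW : U ⊓ W = ⊥) (hsup : U ⊔ W = ⊤) :
    ∃ W' : Subgroup V, (∀ a : A, ∀ w ∈ W', a • w ∈ W') ∧ U ⊓ W' = ⊥ ∧ U ⊔ W' = ⊤ := by
  classical
  haveI : Fintype A := Fintype.ofFinite A
  obtain ⟨ρ, hρU, hρ⟩ := exists_proj U W hUW hsup
  let τ : V →* V := ∏ a : A, (MulDistribMulAction.toMonoidHom V a⁻¹).comp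
    (ρ.comp (MulDistribMulAction.toMonoidHom V a))
  have hτ : ∀ v, τ v = ∏ a : A, a⁻¹ • ρ (a • v) := by
    intro v
    simp only [τ, MonoidHom.finset_prod_apply]
    rfl
  have h1 : ∀ v, τ v ∈ U := by
    intro v
    rw [hτ]
    exact Subgroup.prod_mem _ (fun a _ => hU _ _ (hρU _))
  have h2 : ∀ u ∈ U, τ u = u ^ Nat.card A := by
    intro u hu
    rw [hτ, Finset.prod_congr rfl (fun a _ => by rw [hρ _ (hU a u hu), inv_smul_smul]),
      Finset.prod_const, Finset.card_univ, Nat.card_eq_fintype_card]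
  have h3 : ∀ (b : A) v, τ (b • v) = b • τ v := by
    intro b v
    rw [hτ, hτ, Finset.smul_prod']
    refine Fintype.prod_equiv (Equiv.mulRight b) _ _ (fun a => ?_)
    show a⁻¹ • ρ (a • b • v) = b • (a * b)⁻¹ • ρ ((a * b) • v)
    rw [mul_smul, mul_inv_rev, mul_smul, smul_inv_smul]
  have hcopo : ∀ x : V, (Nat.card A).Coprime (orderOf x) := fun x =>
    Nat.Coprime.coprime_dvd_right (orderOf_dvd_natCard x) hcop
  refine ⟨τ.ker, fun a w hw => ?_, ?_, ?_⟩
  · rw [MonoidHom.mem_ker] at hw ⊢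
    rw [h3, hw, smul_one]
  · rw [eq_bot_iff]
    rintro u ⟨hu, hk⟩
    have hk' : τ u = 1 := MonoidHom.mem_ker.1 hk
    rw [h2 u hu] at hk'
    obtain ⟨m, hm⟩ := exists_pow_eq_self_of_coprime (hcopo u)
    rw [Subgroup.mem_bot, ← hm, hk', one_pow]
  · rw [eq_top_iff]
    intro v _
    obtain ⟨m, hm⟩ := exists_pow_eq_self_of_coprime (hcopo (τ v))
    have hu : (τ v) ^ m ∈ U := Subgroup.pow_mem _ (h1 v) m
    have hk : v * ((τ v) ^ m)⁻¹ ∈ τ.ker := by
      rw [MonoidHom.mem_ker, map_mul, map_inv, h2 _ hu, ← pow_mul, mul_comm m, pow_mul, hm,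
        mul_inv_cancel]
    have : v = (τ v) ^ m * (v * ((τ v) ^ m)⁻¹) := by
      rw [mul_comm v, mul_inv_cancel_left]
    rw [this]
    exact Subgroup.mul_mem_sup hu hk

/-- complements exist in abelian groups of prime exponent. -/
theorem exists_compl_ea {V : Type*} [CommGroup V] [Finite V] {p : ℕ} (hp : p.Prime)
    (hV : ∀ v : V, v ^ p = 1) (U : Subgroup V) : ∃ W : Subgroup V, U ⊓ W = ⊥ ∧ U ⊔ W = ⊤ := by
  obtain ⟨W, hW, hmax⟩ := (Set.toFinite {W : Subgroup V | U ⊓ W = ⊥}).exists_maximal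
    ⟨⊥, by simp⟩
  refine ⟨W, hW, ?_⟩
  by_contra hne
  obtain ⟨v, hv⟩ : ∃ v, v ∉ U ⊔ W := by
    by_contra hcon
    push Not at hcon
    exact hne (eq_top_iff.2 fun x _ => hcon x)
  have h1 : U ⊓ (W ⊔ Subgroup.zpowers v) = ⊥ := by
    rw [eq_bot_iff]
    rintro x ⟨hxU, hxW⟩
    obtain ⟨w, hw, z, hz, rfl⟩ := Subgroup.mem_sup.1 hxW
    obtain ⟨i, rfl⟩ := hz
    have hzi : v ^ i ∈ U ⊔ W := by
      have : v ^ i = (w * v ^ i) * w⁻¹ := by rw [mul_comm w, mul_inv_cancel_right]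
      rw [this]
      exact Subgroup.mul_mem_sup hxU (W.inv_mem hw)
    by_cases hpi : (p : ℤ) ∣ i
    · obtain ⟨j, rfl⟩ := hpi
      have : v ^ ((p : ℤ) * j) = 1 := by rw [zpow_mul, zpow_natCast, hV, one_zpow]
      have hx : w * v ^ ((p : ℤ) * j) ∈ U ⊓ W := by
        refine ⟨hxU, ?_⟩
        rw [this, mul_one]; exact hw
      rw [hW] at hx
      exact hx
    · exfalso
      apply hv
      have hcop : IsCoprime i (p : ℤ) :=
        ((Nat.prime_iff_prime_int.1 hp).coprime_iff_not_dvd.2 hpi).symm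
      obtain ⟨a, b, hab⟩ := hcop
      have : v = (v ^ i) ^ a := by
        have h2 : v ^ (a * i + b * (p : ℤ)) = v := by rw [hab, zpow_one]
        rw [zpow_add, mul_comm b, zpow_mul v (p : ℤ) b, zpow_natCast, hV, one_zpow, mul_one,
          mul_comm a, zpow_mul] at h2
        exact h2.symm
      rw [this]
      exact Subgroup.zpow_mem _ hzi a
  have h2 := hmax h1 le_sup_left
  apply hv
  exact (le_sup_right : W ≤ U ⊔ W) (h2 ((le_sup_right : Subgroup.zpowers v ≤ W ⊔ _)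
    (Subgroup.mem_zpowers v)))

end Cfsg.Agent.Lib.Lead.Maschke
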