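import Cfsg.Agent.Lib.Lead.Residual

set_option autoImplicit false
open Cfsg Cfsg.FusionSystem

namespace Cfsg.Agent.Fus

variable {Ω : Type*} [Group Ω]

/-- the full subsystem of `D` on a subgroup `T`. -/
def resSystem {U : Subgroup Ω} (D : FusionSystem U) (T : Subgroup Ω) (hTU : T ≤ U) :
    FusionSystem T where
  Hom P := {φ | φ ∈ D.Hom P ∧ P ≤ T ∧ ∀ x, φ x ∈ T}
  le_of_mem h := h.2
  injective_of_mem h := D.injective_of_mem h.1
  conj_mem := by
    intro P g hP hg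
    refine ⟨D.conj_mem (hP.trans hTU) (hTU hg), hP, fun x => ?_⟩
    exact T.mul_mem (T.mul_mem hg (hP x.2)) (T.inv_mem hg)
  comp_mem := by
    intro P Q φ ψ hφ hψ h
    exact ⟨D.comp_mem hφ.1 hψ.1 h, hφ.2.1, fun x => hψ.2.2 _⟩
  inv_mem := by
    intro P φ hφ
    obtain ⟨ψ, hψ, h⟩ := D.inv_mem hφ.1
    refine ⟨ψ, ⟨hψ, ?_, ?_⟩, h⟩
    · rintro _ ⟨x, rfl⟩; exact hφ.2.2 x
    · rintro ⟨_, x, rfl⟩
      rw [h]; exact hφ.2.1 x.2

/-- A saturated system `E` on `T` lies in any system on `U ≥ T` containing all `O^p(Aut_E(P))`. -/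
theorem subsystem_of_pResidual {T U : Subgroup Ω} [Finite T] {p : ℕ} [Fact p.Prime]
    (hT : IsPGroup p T) (E : FusionSystem T) (hE : E.IsSaturated p) (D : FusionSystem U)
    (hTU : T ≤ U)
    (h : ∀ P : Subgroup Ω, P ≤ T → ∀ β ∈ Cfsg.pResidual p (E.autGroup P),
      (β : MulAut P) ∈ D.autGroup P) : E.IsSubsystemOf D := by
  have h1 : E ≤ resSystem D T hTU := by
    apply le_of_pResidual hT E hE
    intro P hP β hβ
    rw [mem_autGroup_iff _ hP]
    refine ⟨(mem_autGroup_iff D (hP.trans hTU) _).mp (h P hP β hβ), hP, fun x => hP ?_⟩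
    exact ((β : MulAut P) x).2
  intro P φ hφ
  exact (h1 P hφ).1

theorem autGroup_mono {T U : Subgroup Ω} {E : FusionSystem T} {F : FusionSystem U}
    (h : E.IsSubsystemOf F) (P : Subgroup Ω) : E.autGroup P ≤ F.autGroup P :=
  Subgroup.closure_mono (fun _ hβ => h P hβ)

theorem pResidual_autGroup_mono {T U : Subgroup Ω} {E : FusionSystem T} {F : FusionSystem U}
    (h : E.IsSubsystemOf F) (p : ℕ) (P : Subgroup Ω) {β : E.autGroup P}
    (hβ : β ∈ Cfsg.pResidual p (E.autGroup P)) :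
    (β : MulAut P) ∈ (Cfsg.pResidual p (F.autGroup P)).map (F.autGroup P).subtype :=
  ⟨Subgroup.inclusion (autGroup_mono h P) β,
    map_pResidual_le p (Subgroup.inclusion (autGroup_mono h P)) ⟨β, hβ, rfl⟩, rfl⟩

/-- a saturated subsystem of `F` lies in every subsystem of `p`-power index on a larger subgroup. -/
theorem subsystem_of_pPowerIndex {S T U : Subgroup Ω} [Finite T] {p : ℕ} [Fact p.Prime]
    (hT : IsPGroup p T) {F : FusionSystem S} (E : FusionSystem T) (hE : E.IsSaturated p)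
    (hEF : E.IsSubsystemOf F) (D : FusionSystem U) (hD : D.HasPPowerIndexIn F p) (hTU : T ≤ U) :
    E.IsSubsystemOf D :=
  subsystem_of_pResidual hT E hE D hTU
    (fun P hP _ hβ => hD.2.2 P (hP.trans hTU) (pResidual_autGroup_mono hEF p P hβ))

theorem pPowerIndex_unique {S T₁ T₂ : Subgroup Ω} [Finite S] {p : ℕ} [Fact p.Prime]
    (hS : IsPGroup p S) {F : FusionSystem S} (hT : T₁ = T₂) (hTS : T₁ ≤ S)
    (E₁ : FusionSystem T₁) (E₂ : FusionSystem T₂)
    (h₁ : E₁.IsSaturated p) (h₂ : E₂.IsSaturated p) (i₁ : E₁.HasPPowerIndexIn F p)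
    (i₂ : E₂.HasPPowerIndexIn F p) (P : Subgroup Ω) : E₁.Hom P = E₂.Hom P := by
  subst hT
  have : Finite T₁ := finite_of_le hTS
  have hp : IsPGroup p T₁ := hS.to_le hTS
  exact Set.Subset.antisymm
    (subsystem_of_pPowerIndex hp E₁ h₁ i₁.1 E₂ i₂ le_rfl P)
    (subsystem_of_pPowerIndex hp E₂ h₂ i₂.1 E₁ i₁ le_rfl P)

end Cfsg.Agent.Fus
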