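import Cfsg.Agent.Lib.Lead.Hyperfocal
import Mathlib.GroupTheory.Focal
import Mathlib.GroupTheory.Nilpotent

set_option autoImplicit false
open Cfsg Cfsg.FusionSystem

namespace Cfsg.Agent.Fus

section groups
variable {G : Type*} [Group G]

theorem exists_coprime_lift [Finite G] {p : ℕ} [hp : Fact p.Prime] {H : Type*} [Group H] (f : G →* H)
    (g : G) (h : (orderOf (f g)).Coprime p) : ∃ g' : G, (orderOf g').Coprime p ∧ f g' = f g := by
  by_cases h1 : orderOf (f g) = 1
  · refine ⟨1, by simp, ?_⟩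
    rw [orderOf_eq_one_iff] at h1
    rw [h1, map_one]
  have hpos : 0 < orderOf (f g) := by
    have : orderOf (f g) ∣ orderOf g := orderOf_map_dvd f g
    exact Nat.pos_of_dvd_of_pos this (orderOf_pos g)
  have hm : 1 < orderOf (f g) := by omega
  set a := (orderOf g).factorization p with ha
  have hc : (p ^ a).Coprime (orderOf (f g)) := (Nat.Coprime.pow_right a h).symm
  obtain ⟨k, -, hk⟩ := Nat.exists_mul_mod_eq_one_of_coprime hc hm
  refine ⟨(g ^ p ^ a) ^ k, ?_, ?_⟩
  · have h2 : (orderOf (g ^ p ^ a)).Coprime p := by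
      rw [orderOf_pow_of_dvd (pow_ne_zero _ hp.out.ne_zero) (Nat.ordProj_dvd _ _)]
      exact (Nat.coprime_ordCompl hp.out (orderOf_pos g).ne').symm
    exact Nat.Coprime.coprime_dvd_left (orderOf_pow_dvd k) h2
  · rw [← pow_mul, map_pow, ← pow_mod_orderOf, hk, pow_one]

theorem pResidual_le_map [Finite G] {p : ℕ} [hp : Fact p.Prime] {H : Type*} [Group H] (f : G →* H)
    (hf : Function.Surjective f) : Cfsg.pResidual p H ≤ (Cfsg.pResidual p G).map f := by
  conv_lhs => rw [Cfsg.pResidual]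
  rw [Subgroup.closure_le]
  intro h hh
  obtain ⟨g, rfl⟩ := hf h
  obtain ⟨g', hg', e⟩ := exists_coprime_lift f g hh
  exact ⟨g', mem_pResidual_of_coprime hg', e⟩

theorem pResidual_le_ker' {p : ℕ} {H : Type*} [Group H] (f : G →* H) (hH : IsPGroup p H) :
    Cfsg.pResidual p G ≤ f.ker := by
  rw [Cfsg.pResidual, Subgroup.closure_le]
  intro g hg
  obtain ⟨k, hk⟩ := hH (f g)
  have h1 : orderOf (f g) ∣ p ^ k := orderOf_dvd_of_pow_eq_one hk
  have h2 : (orderOf (f g)).Coprime (p ^ k) :=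
    Nat.Coprime.pow_right k (Nat.Coprime.coprime_dvd_left (orderOf_map_dvd f g) hg)
  have h3 : orderOf (f g) = 1 := Nat.Coprime.eq_one_of_dvd h2 h1
  exact orderOf_eq_one_iff.mp h3

theorem pResidual_pResidual (p : ℕ) : Cfsg.pResidual p ↥(Cfsg.pResidual p G) = ⊤ := by
  rw [eq_top_iff]
  have h : Cfsg.pResidual p G ≤
      (Cfsg.pResidual p ↥(Cfsg.pResidual p G)).map (Cfsg.pResidual p G).subtype := by
    conv_lhs => rw [Cfsg.pResidual]
    rw [Subgroup.closure_le]
    intro g hg
    refine ⟨⟨g, mem_pResidual_of_coprime hg⟩, mem_pResidual_of_coprime ?_, rfl⟩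
    rw [Subgroup.orderOf_mk]; exact hg
  intro x _
  obtain ⟨y, hy, hxy⟩ := h x.2
  have : y = x := Subtype.ext hxy
  rw [← this]; exact hy

theorem eq_top_of_sup_commutator [Finite G] {p : ℕ} [Fact p.Prime] (hG : IsPGroup p G)
    (K : Subgroup G) [K.Normal] (h : K ⊔ commutator G = ⊤) : K = ⊤ := by
  by_contra hK
  haveI : Group.IsNilpotent G := hG.isNilpotent
  haveI : Nontrivial (G ⧸ K) := by
    rw [← not_subsingleton_iff_nontrivial]
    intro hs
    exact hK ((QuotientGroup.subsingleton_iff).mp hs)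
  have h1 := Group.IsSolvable.commutator_lt_top_of_nontrivial (G ⧸ K)
  have h2 : (commutator G).map (QuotientGroup.mk' K) = commutator (G ⧸ K) := by
    rw [commutator_def, Subgroup.map_commutator, ← MonoidHom.range_eq_map,
      MonoidHom.range_eq_top.mpr (QuotientGroup.mk'_surjective K)]
    rfl
  have h3 : (K ⊔ commutator G).map (QuotientGroup.mk' K) = ⊤ := by
    rw [h, ← MonoidHom.range_eq_map, MonoidHom.range_eq_top.mpr (QuotientGroup.mk'_surjective K)]
  rw [Subgroup.map_sup, QuotientGroup.map_mk'_self, bot_sup_eq, h2] at h3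
  exact h1.ne h3

end groups

end Cfsg.Agent.Fus
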