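import Mathlib
import Cfsg.Prelude.Def_SylowChains
import Cfsg.Agent.Lib.Helper9.StrongEmb
import Cfsg.Agent.Lib.Helper6.Basic

set_option autoImplicit false
open Cfsg
open scoped Pointwise

namespace Cfsg.Agent.SylGraph

open Cfsg.Agent.Lib.Helper6.Basic
open Cfsg.Agent.Lib.Helper9.StrongEmb Cfsg.Agent.Lib.Helper9.SylowIn

variable {G : Type*} [Group G] {p : ℕ}

def Adj (Q Q' : Sylow p G) : Prop := (Q : Subgroup G) ⊓ (Q' : Subgroup G) ≠ ⊥

def Conn (Q Q' : Sylow p G) : Prop := Relation.ReflTransGen Adj Q Q'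

theorem adj_symm {Q Q' : Sylow p G} (h : Adj Q Q') : Adj Q' Q := by
  unfold Adj at *; rwa [inf_comm]

theorem conn_symm {Q Q' : Sylow p G} (h : Conn Q Q') : Conn Q' Q := by
  induction h with
  | refl => exact Relation.ReflTransGen.refl
  | tail _ hbc ih => exact Relation.ReflTransGen.head (adj_symm hbc) ih

theorem coe_smul (g : G) (Q : Sylow p G) : ((g • Q : Sylow p G) : Subgroup G) = cj g (Q : Subgroup G) :=
  rfl

theorem adj_smul (g : G) {Q Q' : Sylow p G} (h : Adj Q Q') : Adj (g • Q) (g • Q') := by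
  unfold Adj at *
  obtain ⟨x, hx⟩ := Subgroup.ne_bot_iff_exists_ne_one.1 h
  intro hb
  have h1 : g * (x : G) * g⁻¹ ∈ ((g • Q : Sylow p G) : Subgroup G) ⊓ ((g • Q' : Sylow p G) : Subgroup G) := by
    rw [coe_smul, coe_smul]
    exact ⟨conj_mem_cj x.2.1, conj_mem_cj x.2.2⟩
  rw [hb, Subgroup.mem_bot] at h1
  apply hx
  apply Subtype.ext
  have : (x : G) = g⁻¹ * (g * (x : G) * g⁻¹) * g := by group
  rw [this, h1]; simp

theorem conn_smul (g : G) {Q Q' : Sylow p G} (h : Conn Q Q') : Conn (g • Q) (g • Q') := by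
  induction h with
  | refl => exact Relation.ReflTransGen.refl
  | tail _ hbc ih => exact Relation.ReflTransGen.tail ih (adj_smul g hbc)

theorem chain_of_conn {S T : Sylow p G} (h : Conn S T) :
    ∃ (n : ℕ) (c : Fin (n + 1) → Sylow p G), c 0 = S ∧ c (Fin.last n) = T ∧
      ∀ i : Fin n, c i.castSucc ≠ c i.succ ∧ (c i.castSucc : Subgroup G) ⊓ (c i.succ : Subgroup G) ≠ ⊥ := by
  induction h with
  | refl => exact ⟨0, fun _ => S, rfl, rfl, fun i => i.elim0⟩
  | tail hab hbc ih =>
    rename_i b c'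
    obtain ⟨n, c, h0, hl, hc⟩ := ih
    by_cases hbe : b = c'
    · exact ⟨n, c, h0, hbe ▸ hl, hc⟩
    · refine ⟨n + 1, Fin.snoc c c', ?_, ?_, ?_⟩
      · have : (0 : Fin (n + 2)) = Fin.castSucc (0 : Fin (n + 1)) := rfl
        rw [this, Fin.snoc_castSucc]; exact h0
      · exact Fin.snoc_last _ _
      · intro i
        refine Fin.lastCases ?_ (fun j => ?_) i
        · rw [Fin.snoc_castSucc, Fin.succ_last, Fin.snoc_last, hl]
          exact ⟨hbe, hbc⟩
        · rw [Fin.snoc_castSucc, Fin.succ_castSucc, Fin.snoc_castSucc]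
          exact hc j

theorem conn_of_chain {n : ℕ} (c : Fin (n + 1) → Sylow p G)
    (hc : ∀ i : Fin n, (c i.castSucc : Subgroup G) ⊓ (c i.succ : Subgroup G) ≠ ⊥) :
    Conn (c 0) (c (Fin.last n)) := by
  have : ∀ i : Fin (n + 1), Conn (c 0) (c i) := by
    intro i
    induction i using Fin.induction with
    | zero => exact Relation.ReflTransGen.refl
    | succ j ih => exact Relation.ReflTransGen.tail ih (hc j)
  exact this _

theorem connected_iff : Cfsg.IsSylowChainConnected p G ↔ ∀ S T : Sylow p G, Conn S T := by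
  constructor
  · intro h S T
    obtain ⟨n, c, h0, hl, _, hc⟩ := h S T
    have := conn_of_chain c (fun i => (hc i).2)
    rwa [h0, hl] at this
  · intro h S T
    by_cases hST : S = T
    · subst hST
      exact ⟨0, fun _ => S, rfl, rfl, fun _ => inf_le_left, fun i => i.elim0⟩
    by_cases hb : (S : Subgroup G) ⊓ (T : Subgroup G) = ⊥
    · obtain ⟨n, c, h0, hl, hc⟩ := chain_of_conn (h S T)
      exact ⟨n, c, h0, hl, fun i => by rw [hb]; exact bot_le, hc⟩
    · refine ⟨1, ![S, T], rfl, rfl, ?_, ?_⟩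
      · intro i
        fin_cases i
        · exact inf_le_left
        · exact inf_le_right
      · intro i
        fin_cases i
        exact ⟨hST, hb⟩

/-- the stabiliser of the component of `S` -/
def stab (S : Sylow p G) : Subgroup G where
  carrier := {g | Conn S (g • S)}
  one_mem' := by
    show Conn S ((1 : G) • S)
    rw [one_smul]; exact Relation.ReflTransGen.refl
  mul_mem' := by
    intro a b ha hb
    show Conn S ((a * b) • S)
    rw [mul_smul]
    exact Relation.ReflTransGen.trans ha (conn_smul a hb)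
  inv_mem' := by
    intro a ha
    show Conn S (a⁻¹ • S)
    have := conn_smul a⁻¹ ha
    rw [inv_smul_smul] at this
    exact conn_symm this

theorem exists_condC [Finite G] [hp : Fact p.Prime] (h : ¬ Cfsg.IsSylowChainConnected p G) :
    ∃ H : Subgroup G, H ≠ ⊤ ∧ CondC p H := by
  rw [connected_iff] at h
  push Not at h
  obtain ⟨S, T, hST⟩ := h
  obtain ⟨g, rfl⟩ := MulAction.exists_smul_eq G S T
  have hSH : (S : Subgroup G) ≤ stab S := by
    intro s hs
    show Conn S (s • S)
    rw [Sylow.smul_eq_iff_mem_normalizer.2 (Subgroup.le_normalizer hs)]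
    exact Relation.ReflTransGen.refl
  have hSne : (S : Subgroup G) ≠ ⊥ := by
    intro hb
    apply hST
    have : g • S = S := by
      apply Sylow.ext
      rw [coe_smul, hb]
      exact Subgroup.map_bot _
    rw [this]
    exact Relation.ReflTransGen.refl
  refine ⟨stab S, fun htop => hST (show g ∈ stab S from htop ▸ Subgroup.mem_top g), ?_, ?_⟩
  · exact (dvd_card_of_ne_bot S.2 hSne).trans (Subgroup.card_dvd_of_le hSH)
  · intro A hAH hA hne n hn
    have hS : IsSylowIn p (S : Subgroup G) (stab S) :=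
      ⟨hSH, S.2, fun R' hR' hle _ => S.3 hR' hle⟩
    obtain ⟨d, hd, hle⟩ := hS.exists_conj_le hA hAH
    have hAQ : A ≤ ((d⁻¹ • S : Sylow p G) : Subgroup G) := by
      rw [coe_smul]
      exact cj_le_iff.1 hle
    have hQ : Conn S (d⁻¹ • S) := (stab S).inv_mem hd
    have hAnQ : A ≤ ((n • d⁻¹ • S : Sylow p G) : Subgroup G) := by
      rw [coe_smul]
      have := cj_mono (g := n) hAQ
      rwa [cj_eq_self_iff.2 hn] at this
    have hadj : Adj (d⁻¹ • S) (n • d⁻¹ • S) := by
      intro hb
      exact hne (le_bot_iff.1 (hb ▸ le_inf hAQ hAnQ))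
    show Conn S (n • S)
    exact Relation.ReflTransGen.trans (Relation.ReflTransGen.tail hQ hadj)
      (conn_symm (conn_smul n hQ))

end Cfsg.Agent.SylGraph
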